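import Mathlib
import Cfsg.Agent.Lib.Helper51.PGVBase

/-! A counting lemma for the `P(G,V)`-theorem, `p = 2` (piece 4 of helper51's plan for S3086). -/

set_option autoImplicit false

namespace Cfsg.Agent.Lib.Helper73.PGVCount

open Cfsg.Agent.Lib.Helper51.PGV

universe u v

section

variable {K : Type*} [Field K] {V : Type v} [AddCommGroup V] [Module K V] [Finite V]

theorem card_dualAnnihilator_mul (H : Submodule K V) :
    Nat.card H.dualAnnihilator * Nat.card H = Nat.card V := by
  have h := Subspace.finrank_add_finrank_dualAnnihilator_eq H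
  rw [Module.natCard_eq_pow_finrank (K := K) (V := H.dualAnnihilator),
    Module.natCard_eq_pow_finrank (K := K) (V := H),
    Module.natCard_eq_pow_finrank (K := K) (V := V), ← pow_add, ← h, add_comm]

theorem card_range_mul_ker (f : Module.End K V) :
    Nat.card (LinearMap.range f) * Nat.card (LinearMap.ker f) = Nat.card V := by
  have h := LinearMap.finrank_range_add_finrank_ker f
  rw [Module.natCard_eq_pow_finrank (K := K) (V := LinearMap.range f),
    Module.natCard_eq_pow_finrank (K := K) (V := LinearMap.ker f),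
    Module.natCard_eq_pow_finrank (K := K) (V := V), ← pow_add, h]

theorem card_dualAnnihilator_ker (f : Module.End K V) :
    Nat.card (LinearMap.ker f).dualAnnihilator = Nat.card (LinearMap.range f) := by
  have h1 := card_dualAnnihilator_mul (LinearMap.ker f)
  have h2 := card_range_mul_ker f
  have hpos : 0 < Nat.card (LinearMap.ker f) := Nat.card_pos
  exact Nat.eq_of_mul_eq_mul_right hpos (h1.trans h2.symm)

end

theorem count {𝔄 : Type u} [Group 𝔄] [Finite 𝔄] {V : Type v} [AddCommGroup V]
    [Module (ZMod 2) V] [Finite V]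
    (α : 𝔄 →* Module.End (ZMod 2) V) (S : Set 𝔄) (hS : Nat.card 𝔄 ≤ 2 * Nat.card S)
    (hpair : ∀ b ∈ S, ∀ b' ∈ S,
      α b = α b' ∨ LinearMap.ker (α b - 1) ⊔ LinearMap.ker (α b' - 1) = ⊤)
    (best : Nat.card α.ker * Nat.card V ≤ Nat.card 𝔄 * Nat.card (fixS α ⊤)) :
    ∃ b ∈ S, Nat.card (LinearMap.range (α b - 1)) ≤ 2 := by
  classical
  by_contra hcon
  push Not at hcon
  have : Fintype 𝔄 := Fintype.ofFinite _
  have : Finite (Module.Dual (ZMod 2) V) := Finite.of_injective _ DFunLike.coe_injective
  have : Fintype (Module.Dual (ZMod 2) V) := Fintype.ofFinite _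
  set C := fixS α ⊤ with hC
  set S' : Finset 𝔄 := S.toFinset with hS'
  set T : Finset (Module.End (ZMod 2) V) := S'.image α with hT
  let Nz : Submodule (ZMod 2) V → Finset (Module.Dual (ZMod 2) V) := fun H =>
    Finset.univ.filter (fun φ => φ ≠ 0 ∧ φ ∈ H.dualAnnihilator)
  have hNz : ∀ H, (Nz H).card + 1 = Nat.card H.dualAnnihilator := by
    intro H
    have h1 : Finset.univ.filter (fun φ => φ ∈ H.dualAnnihilator) = insert 0 (Nz H) := by
      ext φ
      simp only [Nz, Finset.mem_filter, Finset.mem_univ, true_and, Finset.mem_insert]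
      constructor
      · intro h
        by_cases h0 : φ = 0
        · exact Or.inl h0
        · exact Or.inr ⟨h0, h⟩
      · rintro (rfl | h)
        · exact zero_mem _
        · exact h.2
    have h2 : (0 : Module.Dual (ZMod 2) V) ∉ Nz H := by
      simp [Nz]
    rw [← Finset.card_insert_of_notMem h2, ← h1, Nat.card_eq_fintype_card, Fintype.card_subtype]
  have hScard : Nat.card S = S'.card := by
    rw [hS', Set.toFinset_card, Nat.card_eq_fintype_card]
  -- (a)
  have ha : S'.card ≤ Nat.card α.ker * T.card := by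
    apply Finset.card_le_mul_card_image
    intro τ hτ
    obtain ⟨b₀, -, rfl⟩ := Finset.mem_image.1 hτ
    have h1 : Nat.card α.ker = ((α.ker : Set 𝔄).toFinset).card := by
      rw [Set.toFinset_card, ← Nat.card_eq_fintype_card]
      rfl
    rw [h1]
    apply Finset.card_le_card_of_injOn (fun b => b₀⁻¹ * b)
    · intro b hb
      have hb' : α b = α b₀ := (Finset.mem_filter.1 hb).2
      simp only [Set.coe_toFinset, SetLike.mem_coe, MonoidHom.mem_ker]
      rw [map_mul, hb', hom_inv_mul]
    · intro b _ b' _ h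
      exact mul_left_cancel h
  -- (b)
  have hdisj : (T : Set (Module.End (ZMod 2) V)).PairwiseDisjoint
      (fun τ => Nz (LinearMap.ker (τ - 1))) := by
    intro τ hτ τ' hτ' hne
    obtain ⟨b, hb, rfl⟩ := Finset.mem_image.1 hτ
    obtain ⟨b', hb', rfl⟩ := Finset.mem_image.1 hτ'
    rw [hS', Set.mem_toFinset] at hb hb'
    have h1 := (hpair b hb b' hb').resolve_left hne
    change Disjoint (Nz _) (Nz _)
    rw [Finset.disjoint_left]
    intro φ hφ hφ'
    have h2 := (Finset.mem_filter.1 hφ).2
    have h3 := (Finset.mem_filter.1 hφ').2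
    have h4 : φ ∈ (LinearMap.ker (α b - 1) ⊔ LinearMap.ker (α b' - 1)).dualAnnihilator := by
      rw [Submodule.dualAnnihilator_sup_eq]
      exact ⟨h2.2, h3.2⟩
    rw [h1, Submodule.dualAnnihilator_top, Submodule.mem_bot] at h4
    exact h2.1 h4
  have hsub : T.biUnion (fun τ => Nz (LinearMap.ker (τ - 1))) ⊆ Nz C := by
    intro φ hφ
    obtain ⟨τ, hτ, hφ⟩ := Finset.mem_biUnion.1 hφ
    obtain ⟨b, hb, rfl⟩ := Finset.mem_image.1 hτ
    have h2 := (Finset.mem_filter.1 hφ).2
    refine Finset.mem_filter.2 ⟨Finset.mem_univ _, h2.1, ?_⟩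
    refine Submodule.dualAnnihilator_anti ?_ h2.2
    intro v hv
    rw [LinearMap.mem_ker, LinearMap.sub_apply, Module.End.one_apply, hv b (Subgroup.mem_top b),
      sub_self]
  have hb : 2 * T.card ≤ (Nz C).card := by
    calc 2 * T.card = T.card • 2 := by rw [smul_eq_mul, mul_comm]
      _ ≤ ∑ τ ∈ T, (Nz (LinearMap.ker (τ - 1))).card := by
          apply Finset.card_nsmul_le_sum
          intro τ hτ
          obtain ⟨b, hb, rfl⟩ := Finset.mem_image.1 hτ
          rw [hS', Set.mem_toFinset] at hb
          have h1 := hNz (LinearMap.ker (α b - 1))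
          rw [card_dualAnnihilator_ker] at h1
          have h2 := hcon b hb
          omega
      _ = (T.biUnion (fun τ => Nz (LinearMap.ker (τ - 1)))).card :=
          (Finset.card_biUnion hdisj).symm
      _ ≤ (Nz C).card := Finset.card_le_card hsub
  -- arithmetic
  have hc1 := hNz C
  have hc2 := card_dualAnnihilator_mul C
  have hCpos : 0 < Nat.card C := Nat.card_pos
  have hkpos : 0 < Nat.card α.ker := Nat.card_pos
  rw [hScard] at hS
  have e1 : Nat.card α.ker * Nat.card C.dualAnnihilator * Nat.card C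
      ≤ 2 * (Nat.card α.ker * T.card) * Nat.card C := by
    calc Nat.card α.ker * Nat.card C.dualAnnihilator * Nat.card C
        = Nat.card α.ker * Nat.card V := by rw [mul_assoc, hc2]
      _ ≤ Nat.card 𝔄 * Nat.card C := best
      _ ≤ 2 * S'.card * Nat.card C := Nat.mul_le_mul_right _ hS
      _ ≤ 2 * (Nat.card α.ker * T.card) * Nat.card C :=
          Nat.mul_le_mul_right _ (Nat.mul_le_mul_left _ ha)
  have e2 := Nat.le_of_mul_le_mul_right e1 hCpos
  have e3 : Nat.card α.ker * Nat.card C.dualAnnihilator ≤ Nat.card α.ker * (2 * T.card) := by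
    calc _ ≤ 2 * (Nat.card α.ker * T.card) := e2
      _ = _ := by ring
  have e4 := Nat.le_of_mul_le_mul_left e3 hkpos
  omega

end Cfsg.Agent.Lib.Helper73.PGVCount
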