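import Mathlib
import Cfsg.Agent.Lib.Helper51.PGVCfg

/-! The `P(G,V)`-theorem, `p` odd (piece 2 of helper51's plan for S3086). -/

set_option autoImplicit false

namespace Cfsg.Agent.Lib.Helper73.PGVOdd

open Cfsg.Agent.Lib.Helper51.PGV

universe u v w

section ring

variable {R : Type*} [Ring R]

theorem quad1 (δ x x1 x2 : R) (hδ : δ * δ = 2 * δ - 1) (h1 : δ * x = x1 * δ)
    (h2 : δ * x1 = x2 * δ) : (x - x2) * δ = 2 * (x - x1) := by
  have e1 : x2 * (δ * δ) = (δ * δ) * x := by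
    rw [← mul_assoc, ← h2, mul_assoc, ← h1, mul_assoc]
  rw [hδ] at e1
  -- `2 (x1 - x2) δ = x - x2`
  have e2 : 2 * ((x1 - x2) * δ) = x - x2 := by
    linear_combination (norm := noncomm_ring) (-1 : R) * e1 - 2 * h1
  have e3 : (x - x2) * δ = 2 * ((x1 - x2) * (δ * δ)) := by
    rw [← e2]; noncomm_ring
  rw [e3, hδ]
  linear_combination (norm := noncomm_ring) 2 * e2

theorem ring_lemma (h2tor : ∀ z : R, 2 * z = 0 → z = 0) (δ x x1 x2 : R)
    (hδ : δ * δ = 2 * δ - 1) (h1 : δ * x = x1 * δ) (h2 : δ * x1 = x2 * δ)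
    (c01 : x * x1 = x1 * x) (c02 : x * x2 = x2 * x) : (x1 - x2) * (x - x1) = 0 := by
  apply h2tor
  have q1 := quad1 δ x x1 x2 hδ h1 h2
  have q2 := quad1 δ (x * x) (x1 * x1) (x2 * x2) hδ
    (by rw [← mul_assoc, h1, mul_assoc, h1, mul_assoc])
    (by rw [← mul_assoc, h2, mul_assoc, h2, mul_assoc])
  linear_combination (norm := noncomm_ring) (x + x2) * q1 - q2 + c02 * δ - 2 * c01

theorem ring_lemma2_core (h2tor : ∀ z : R, 2 * z = 0 → z = 0) (N P s : R)
    (hPN : P * N + N * P = 0) (hc1 : P * s = s * P)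
    (hc2 : P * ((1 - N) * s * (1 + N)) = ((1 - N) * s * (1 + N)) * P) :
    P * (N * s - s * N) = 0 := by
  apply h2tor
  linear_combination (norm := noncomm_ring) (hPN * s - N * hc1 - hc1 * N - s * hPN) +
    (hc1 - hc2 - (hPN * s * N - N * hc1 * N - N * s * hPN))

theorem ring_lemma2 (h2tor : ∀ z : R, 2 * z = 0 → z = 0) (δ δi r s : R) (h2 : δi * δ = 1)
    (hq : δ * δ = 2 * δ - 1)
    (hA : (δi * r * δ) * s = s * (δi * r * δ)) (hB : (δ * r * δi) * s = s * (δ * r * δi))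
    (hC : (δi * r * δ) * (δi * s * δ) = (δi * s * δ) * (δi * r * δ))
    (hD : (δ * r * δi) * (δi * s * δ) = (δi * s * δ) * (δ * r * δi)) :
    (δi * r * δ - r) * (δ * s * δi - s) = 0 := by
  have hδi : δi = 2 - δ := by
    have e : δ * (2 - δ) = 1 := by
      linear_combination (norm := noncomm_ring) (-1 : R) * hq
    calc δi = δi * (δ * (2 - δ)) := by rw [e, mul_one]
      _ = (δi * δ) * (2 - δ) := by rw [mul_assoc]
      _ = 2 - δ := by rw [h2, one_mul]
  obtain ⟨N, rfl⟩ : ∃ N, δ = 1 + N := ⟨δ - 1, by abel⟩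
  have hδi' : δi = 1 - N := by rw [hδi, ← one_add_one_eq_two]; abel
  subst hδi'
  have hNN : N * N = 0 := by
    linear_combination (norm := noncomm_ring) hq
  have hPN : (r * N - N * r) * N + N * (r * N - N * r) = 0 := by
    linear_combination (norm := noncomm_ring) r * hNN - hNN * r
  have hc1 : (r * N - N * r) * s = s * (r * N - N * r) := by
    rw [← sub_eq_zero]
    apply h2tor
    linear_combination (norm := noncomm_ring) hA - hB
  have hc2 : (r * N - N * r) * ((1 - N) * s * (1 + N)) =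
      ((1 - N) * s * (1 + N)) * (r * N - N * r) := by
    rw [← sub_eq_zero]
    apply h2tor
    linear_combination (norm := noncomm_ring) hC - hD
  have hPX := ring_lemma2_core h2tor N (r * N - N * r) s hPN hc1 hc2
  have e : ((1 - N) * r * (1 + N) - r) * ((1 + N) * s * (1 - N) - s) =
      (1 - N) * ((r * N - N * r) * (N * s - s * N)) * (1 - N) := by
    linear_combination (norm := noncomm_ring) (-1 : R) * hNN * r * (N * s - s * N) * (1 - N)
      - ((1 - N) * r * (1 + N) - r) * s * hNN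
  rw [e, hPX, mul_zero, zero_mul]

end ring

section main

open scoped commutatorElement

variable {p : ℕ} [hp : Fact p.Prime]
variable {𝔄 : Type u} [Group 𝔄] {Q : Type w} [Group Q]
variable {V : Type v} [AddCommGroup V] [Module (ZMod p) V]

theorem two_tor (hp2 : p ≠ 2) (z : Module.End (ZMod p) V) (h : 2 * z = 0) : z = 0 := by
  have h1 : (2 : ZMod p) • z = 0 := by
    rw [two_smul, ← two_mul]; exact h
  have h2 : (2 : ZMod p) ≠ 0 := by
    intro h0
    have h3 : ((2 : ℕ) : ZMod p) = 0 := by exact_mod_cast h0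
    rw [ZMod.natCast_eq_zero_iff] at h3
    exact hp2 ((Nat.prime_dvd_prime_iff_eq hp.out Nat.prime_two).1 h3)
  exact (smul_eq_zero.1 h1).resolve_left h2

/-- if a noncentral element fixes `T` (commuting with `κ Q`) from the left, all of `Q` does -/
theorem ann_all (hQ : QSG Q) (κ : Q →* Module.End (ZMod p) V) (T : Module.End (ZMod p) V)
    (hT : ∀ g, κ g * T = T * κ g) {c : Q} (hc : c ∉ Subgroup.center Q) (h : κ c * T = T) :
    ∀ g, κ g * T = T := by
  let N : Subgroup Q :=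
    { carrier := {g | κ g * T = T}
      mul_mem' := by
        intro a b ha hb
        change κ (a * b) * T = T
        rw [map_mul, mul_assoc, hb, ha]
      one_mem' := by
        change κ 1 * T = T
        rw [map_one, one_mul]
      inv_mem' := by
        intro a ha
        change κ a⁻¹ * T = T
        have ha' : κ a * T = T := ha
        calc κ a⁻¹ * T = κ a⁻¹ * (κ a * T) := by rw [ha']
          _ = T := by rw [← mul_assoc, hom_inv_mul, one_mul] }
  have hN : N.Normal := by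
    constructor
    intro n hn g
    have hn' : κ n * T = T := hn
    change κ (g * n * g⁻¹) * T = T
    rw [map_mul, map_mul, mul_assoc, hT, ← mul_assoc, mul_assoc (κ g), hn', hT, mul_assoc,
      hom_mul_inv, mul_one]
  have := hQ.eq_top_of_noncentral N hN h hc
  intro g
  have hg : g ∈ N := this ▸ Subgroup.mem_top g
  exact hg

theorem nrm_pow {α : 𝔄 →* Module.End (ZMod p) V} {κ : Q →* Module.End (ZMod p) V} {b : 𝔄}
    (h : Nrm α κ b) (k : ℕ) : Nrm α κ (b ^ k) := by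
  induction k with
  | zero =>
    intro x
    exact ⟨x, by simp⟩
  | succ k ih =>
    intro x
    obtain ⟨y, hy⟩ := ih x
    obtain ⟨z, hz⟩ := h y
    refine ⟨z, ?_⟩
    rw [← hz, ← hy, pow_succ', mul_inv_rev, map_mul, map_mul]
    simp only [mul_assoc]

theorem comm_fix (φ : Q →* Module.End (ZMod p) V) (T : Module.End (ZMod p) V)
    (hT : ∀ g, φ g * T = T * φ g) (x x' : Q) (h : φ x * φ x' * T = φ x' * φ x * T) :
    φ ⁅x, x'⁆ * T = T := by
  rw [commutatorElement_def, map_mul, map_mul, map_mul]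
  calc φ x * φ x' * φ x⁻¹ * φ x'⁻¹ * T = φ x * φ x' * T * φ x⁻¹ * φ x'⁻¹ := by
        rw [mul_assoc _ (φ x'⁻¹) T, hT, mul_assoc _ (φ x⁻¹), ← mul_assoc (φ x⁻¹), hT]
        simp only [mul_assoc]
    _ = φ x' * φ x * T * φ x⁻¹ * φ x'⁻¹ := by rw [h]
    _ = φ x' * (φ x * φ x⁻¹) * φ x'⁻¹ * T := by
        rw [mul_assoc _ (φ x'⁻¹) T, hT, mul_assoc (φ x') (φ x * φ x⁻¹), mul_assoc (φ x) (φ x⁻¹),
          ← mul_assoc (φ x⁻¹), hT]
        simp only [mul_assoc]
    _ = T := by rw [hom_mul_inv, mul_one, hom_mul_inv, one_mul]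

theorem exists_noncentral_commutator (hQ : QSG Q) {κ : Q →* Module.End (ZMod p) V}
    (hnt : ¬ ∀ x, κ x = 1) : ∃ x x' : Q, ⁅x, x'⁆ ∉ Subgroup.center Q := by
  by_contra hcon
  push Not at hcon
  apply hnt
  intro x
  rw [hQ.eq_one_of_commutators_central hcon x, map_one]

/-- (O2): a quadratic element of `𝔄` normalizes `κ Q`. -/
theorem nrm_of_quad (hQ : QSG Q) (hp2 : p ≠ 2) {α : 𝔄 →* Module.End (ZMod p) V}
    {κ : Q →* Module.End (ZMod p) V} (hnt : ¬ ∀ x, κ x = 1)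
    (hk3 : ∀ b, Nrm α κ b ∨ Mov α κ b) (d : 𝔄) (hexp : d ^ p = 1)
    (hq : α d * α d = 2 * α d - 1) : Nrm α κ d := by
  by_contra hN
  have hM1 : Mov α κ d := (hk3 d).resolve_left hN
  have hM2 : Mov α κ (d ^ 2) := by
    refine (hk3 (d ^ 2)).resolve_left (fun h => hN ?_)
    have h1 := nrm_pow h ((p + 1) / 2)
    have e : (d ^ 2) ^ ((p + 1) / 2) = d := by
      rw [← pow_mul]
      have h2 : 2 * ((p + 1) / 2) = p + 1 := by
        rcases hp.out.eq_two_or_odd with h | h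
        · exact absurd h hp2
        · omega
      rw [h2, pow_succ, hexp, one_mul]
    rwa [e] at h1
  obtain ⟨x, x', hc⟩ := exists_noncentral_commutator hQ hnt
  have hc' : ⁅x', x⁆ ∉ Subgroup.center Q := by
    rw [← commutatorElement_inv]
    intro h
    exact hc (by simpa using inv_mem h)
  apply hnt
  set δ := α d with hδ
  set δi := α d⁻¹ with hδi
  have hδ1 : δ * δi = 1 := hom_mul_inv α d
  have hδ2 : δi * δ = 1 := hom_inv_mul α d
  set κ1 := cj α κ d with hκ1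
  set κ2 := cj α κ (d ^ 2) with hκ2
  have d1 : ∀ x, κ1 x = δ * κ x * δi := fun x => rfl
  have d2 : ∀ x, κ2 x = δ * κ1 x * δi := by
    intro x
    rw [d1, hκ2, cj_apply, pow_two, mul_inv_rev, map_mul, map_mul]
    simp only [mul_assoc, hδ, hδi]
  have k1 : ∀ x, δ * κ x = κ1 x * δ := by
    intro x
    rw [d1, mul_assoc, hδ2, mul_one]
  have k2 : ∀ x, δ * κ1 x = κ2 x * δ := by
    intro x
    rw [d2, mul_assoc, hδ2, mul_one]
  have c1 : ∀ x y, κ1 x * κ y = κ y * κ1 x := fun x y => (hM1 x y).eq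
  have c2 : ∀ x y, κ2 x * κ y = κ y * κ2 x := fun x y => (hM2 x y).eq
  have c12 : ∀ x y, κ2 x * κ1 y = κ1 y * κ2 x := by
    intro x y
    rw [d2, d1 y]
    calc δ * κ1 x * δi * (δ * κ y * δi) = δ * κ1 x * (δi * δ) * κ y * δi := by
          simp only [mul_assoc]
      _ = δ * (κ1 x * κ y) * δi := by rw [hδ2, mul_one]; simp only [mul_assoc]
      _ = δ * (κ y * κ1 x) * δi := by rw [c1]
      _ = δ * κ y * (δi * δ) * κ1 x * δi := by rw [hδ2, mul_one]; simp only [mul_assoc]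
      _ = _ := by simp only [mul_assoc]
  -- the ring lemma
  have R : ∀ x k, (κ1 x - κ2 x) * (κ (k * x * k⁻¹) - κ1 x) = 0 := by
    intro x k
    have hk : κ k⁻¹ * κ k = 1 := hom_inv_mul κ k
    have hk' : κ k * κ k⁻¹ = 1 := hom_mul_inv κ k
    apply ring_lemma (two_tor hp2) (κ k * δ * κ k⁻¹) (κ (k * x * k⁻¹)) (κ1 x) (κ2 x)
    · linear_combination (norm := noncomm_ring) κ k * δ * hk * δ * κ k⁻¹ + κ k * hq * κ k⁻¹ - hk'
    · rw [map_mul, map_mul]
      linear_combination (norm := noncomm_ring) κ k * δ * hk * κ x * κ k⁻¹ + κ k * (k1 x) * κ k⁻¹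
        - (c1 x k) * δ * κ k⁻¹
    · linear_combination (norm := noncomm_ring) (-1 : Module.End (ZMod p) V) * κ k * δ * (c1 x k⁻¹)
        + κ k * (k2 x) * κ k⁻¹ - (c2 x k) * δ * κ k⁻¹
    · exact (c1 x _).symm
    · exact (c2 x _).symm
  have hTc : ∀ x g, κ g * (κ1 x - κ2 x) = (κ1 x - κ2 x) * κ g := by
    intro x g
    rw [mul_sub, sub_mul, c1, c2]
  have R' : ∀ x k : Q, κ ⁅k, x⁆ * (κ1 x - κ2 x) = κ1 x - κ2 x := by
    intro x k
    have h1 := R x k
    have h2 := R x 1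
    rw [one_mul, inv_one, mul_one] at h2
    have h3 : (κ1 x - κ2 x) * κ (k * x * k⁻¹) = (κ1 x - κ2 x) * κ x := by
      linear_combination (norm := noncomm_ring) h1 - h2
    rw [hTc, commutatorElement_def, map_mul, ← mul_assoc, h3, mul_assoc, hom_mul_inv, mul_one]
  have Sx : ∀ h, κ h * (κ1 x - κ2 x) = κ1 x - κ2 x := ann_all hQ κ _ (hTc x) hc' (R' x x')
  have Sx' : ∀ h, κ h * (κ1 x' - κ2 x') = κ1 x' - κ2 x' := ann_all hQ κ _ (hTc x') hc (R' x' x)
  have t1 : ∀ h g, κ1 g * (κ h - 1) = (κ h - 1) * κ1 g := by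
    intro h g
    rw [mul_sub, sub_mul, c1, mul_one, one_mul]
  have t2 : ∀ h g, κ2 g * (κ h - 1) = (κ h - 1) * κ2 g := by
    intro h g
    rw [mul_sub, sub_mul, c2, mul_one, one_mul]
  have A1 : ∀ h, κ1 x * (κ h - 1) = κ2 x * (κ h - 1) := by
    intro h
    rw [t1, t2]
    linear_combination (norm := noncomm_ring) Sx h
  have A2 : ∀ h, κ1 x' * (κ h - 1) = κ2 x' * (κ h - 1) := by
    intro h
    rw [t1, t2]
    linear_combination (norm := noncomm_ring) Sx' h
  have D1 : ∀ h g, κ1 g * (κ h - 1) = κ h - 1 := by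
    intro h
    apply ann_all hQ κ1 _ (t1 h) hc
    apply comm_fix κ1 _ (t1 h)
    calc κ1 x * κ1 x' * (κ h - 1) = κ1 x * (κ2 x' * (κ h - 1)) := by rw [mul_assoc, A2]
      _ = κ2 x' * (κ1 x * (κ h - 1)) := by rw [← mul_assoc, ← c12, mul_assoc]
      _ = κ2 x' * (κ h - 1) * κ1 x := by rw [t1, mul_assoc]
      _ = κ1 x' * (κ h - 1) * κ1 x := by rw [A2]
      _ = κ1 x' * κ1 x * (κ h - 1) := by rw [mul_assoc, ← t1, mul_assoc]
  have D2 : ∀ h g, κ2 g * (κ h - 1) = κ h - 1 := by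
    intro h
    apply ann_all hQ κ2 _ (t2 h) hc
    apply comm_fix κ2 _ (t2 h)
    calc κ2 x * κ2 x' * (κ h - 1) = κ2 x * (κ h - 1) * κ2 x' := by rw [mul_assoc, t2, mul_assoc]
      _ = κ1 x * (κ h - 1) * κ2 x' := by rw [A1]
      _ = κ1 x * κ2 x' * (κ h - 1) := by rw [mul_assoc, ← t2, mul_assoc]
      _ = κ2 x' * (κ1 x * (κ h - 1)) := by rw [← c12, mul_assoc]
      _ = κ2 x' * κ2 x * (κ h - 1) := by rw [A1, mul_assoc]
  have Z : ∀ g h, (κ g - 1) * (κ h - 1) = 0 := by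
    intro g h
    have e1 : δ * (κ h - 1) = (κ1 h - 1) * δ := by
      rw [mul_sub, sub_mul, k1, mul_one, one_mul]
    have e2 : δ * (κ1 h - 1) = (κ2 h - 1) * δ := by
      rw [mul_sub, sub_mul, k2, mul_one, one_mul]
    have z1 : (κ g - 1) * (κ1 h - 1) = 0 := by
      linear_combination (norm := noncomm_ring) D1 g h - c1 h g
    have z2 : (κ g - 1) * (κ2 h - 1) = 0 := by
      linear_combination (norm := noncomm_ring) D2 g h - c2 h g
    linear_combination (norm := noncomm_ring) (κ g - 1) * hq * (κ h - 1) + 2 * (κ g - 1) * e1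
      + 2 * z1 * δ - (κ g - 1) * δ * e1 - (κ g - 1) * e2 * δ - z2 * δ * δ
  apply triv_of_comm hQ
  intro g h
  change κ g * κ h = κ h * κ g
  linear_combination (norm := noncomm_ring) Z g h - Z h g

/-- the subgroup `C_𝔄([V, 𝔄])` (same carrier as helper51's `replD`) -/
def Dsub (α : 𝔄 →* Module.End (ZMod p) V) : Subgroup 𝔄 where
  carrier := {d | ∀ b v, α d (α b v - v) = α b v - v}
  mul_mem' := by
    intro d d' hd hd' b v
    rw [map_mul, Module.End.mul_apply, hd' b v, hd b v]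
  one_mem' := by
    intro b v
    rw [map_one, Module.End.one_apply]
  inv_mem' := by
    intro d hd b v
    conv_lhs => rw [← hd b v]
    rw [hom_inv_apply_apply]

/-- (O4) -/
theorem ann_of_quad (hQ : QSG Q) (hp2 : p ≠ 2) {α : 𝔄 →* Module.End (ZMod p) V}
    {κ : Q →* Module.End (ZMod p) V} {a d : 𝔄} (ha : Mov α κ a) (hda : d * a = a * d)
    (hq : α d * α d = 2 * α d - 1) (Nd : Nrm α κ d) (Ndi : Nrm α κ d⁻¹)
    (hdnc : ¬ ∀ x, Commute (α d) (κ x)) :
    ∀ g h, (κ g - 1) * (cj α κ a h - 1) = 0 := by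
  set δ := α d with hδ
  set δi := α d⁻¹ with hδi
  have hδ1 : δ * δi = 1 := hom_mul_inv α d
  have hδ2 : δi * δ = 1 := hom_inv_mul α d
  set κ' := cj α κ a with hκ'
  have cm : ∀ x y, κ' x * κ y = κ y * κ' x := fun x y => (ha x y).eq
  have Ndi' : ∀ x, ∃ y, δi * κ x * δ = κ y := by
    intro x
    obtain ⟨y, hy⟩ := Ndi x
    rw [inv_inv] at hy
    exact ⟨y, hy⟩
  have hA1 : δ * α a = α a * δ := by rw [hδ, ← map_mul, ← map_mul, hda]
  have hA2 : δi * α a = α a * δi := by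
    rw [hδi, ← map_mul, ← map_mul]
    congr 1
    rw [inv_mul_eq_iff_eq_mul, ← mul_assoc, hda, mul_assoc, mul_inv_cancel, mul_one]
  have hA3 : α a⁻¹ * δi = δi * α a⁻¹ := by
    rw [hδi, ← map_mul, ← map_mul, ← mul_inv_rev, ← mul_inv_rev, hda]
  have hA4 : α a⁻¹ * δ = δ * α a⁻¹ := by
    rw [hδ, ← map_mul, ← map_mul]
    congr 1
    rw [inv_mul_eq_iff_eq_mul, ← mul_assoc, ← hda, mul_assoc, mul_inv_cancel, mul_one]
  have cj1 : ∀ t s, δ * κ t * δi = κ s → δ * κ' t * δi = κ' s := by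
    intro t s h
    rw [hκ', cj_apply, cj_apply, ← h]
    calc δ * (α a * κ t * α a⁻¹) * δi = (δ * α a) * κ t * (α a⁻¹ * δi) := by
          simp only [mul_assoc]
      _ = _ := by rw [hA1, hA3]; simp only [mul_assoc]
  have cj2 : ∀ t s, δi * κ t * δ = κ s → δi * κ' t * δ = κ' s := by
    intro t s h
    rw [hκ', cj_apply, cj_apply, ← h]
    calc δi * (α a * κ t * α a⁻¹) * δ = (δi * α a) * κ t * (α a⁻¹ * δ) := by
          simp only [mul_assoc]
      _ = _ := by rw [hA2, hA4]; simp only [mul_assoc]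
  have P4 : ∀ x t, (δi * κ x * δ - κ x) * (δ * κ' t * δi - κ' t) = 0 := by
    intro x t
    obtain ⟨y, hy⟩ := Ndi' x
    obtain ⟨y', hy'⟩ := Nd x
    obtain ⟨s, hs⟩ := Ndi' t
    have hs' := cj2 t s hs
    apply ring_lemma2 (two_tor hp2) δ δi (κ x) (κ' t) hδ2 hq
    · rw [hy]; exact (cm t y).symm
    · rw [hy']; exact (cm t y').symm
    · rw [hy, hs']; exact (cm s y).symm
    · rw [hy', hs']; exact (cm s y').symm
  have hdnc' : ¬ ∀ x, Commute δi (κ x) := by
    intro h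
    apply hdnc
    intro x
    have h1 : δi * κ x = κ x * δi := (h x).eq
    change δ * κ x = κ x * δ
    calc δ * κ x = δ * κ x * (δi * δ) := by rw [hδ2, mul_one]
      _ = δ * (κ x * δi) * δ := by simp only [mul_assoc]
      _ = (δ * δi) * κ x * δ := by rw [← h1]; simp only [mul_assoc]
      _ = κ x * δ := by rw [hδ1, one_mul]
  obtain ⟨x, y, hxy, hxyc⟩ := exists_noncentral_comm hQ κ δi δ hδ2 hδ1 Ndi' hdnc'
  obtain ⟨t, s, hts, htsc⟩ := exists_noncentral_comm hQ κ δ δi hδ1 hδ2 Nd hdnc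
  have h1 := P4 x t
  rw [hxy, cj1 t s hts] at h1
  have e1 : κ (x * y⁻¹) * κ y = κ x := by rw [← map_mul, inv_mul_cancel_right]
  have e2 : κ' (t * s⁻¹) * κ' s = κ' t := by rw [← map_mul, inv_mul_cancel_right]
  have h2 : (κ (x * y⁻¹) - 1) * (κ' (t * s⁻¹) - 1) * (κ y * κ' s) = 0 := by
    have e3 : (κ (x * y⁻¹) - 1) * (κ' (t * s⁻¹) - 1) * (κ y * κ' s) =
        (κ (x * y⁻¹) - 1) * κ y * ((κ' (t * s⁻¹) - 1) * κ' s) := by
      linear_combination (norm := noncomm_ring) (κ (x * y⁻¹) - 1) * (cm (t * s⁻¹) y) * κ' s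
    have e4 : (κ (x * y⁻¹) - 1) * κ y = κ x - κ y := by rw [sub_mul, e1, one_mul]
    have e5 : (κ' (t * s⁻¹) - 1) * κ' s = κ' t - κ' s := by rw [sub_mul, e2, one_mul]
    rw [e3, e4, e5]
    linear_combination (norm := noncomm_ring) h1
  have h3 : (κ (x * y⁻¹) - 1) * (κ' (t * s⁻¹) - 1) = 0 := by
    have := congrArg (fun z => z * (κ' s⁻¹ * κ y⁻¹)) h2
    simp only [zero_mul] at this
    rw [mul_assoc, mul_assoc (κ y), ← mul_assoc (κ' s), hom_mul_inv, one_mul, hom_mul_inv,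
      mul_one] at this
    exact this
  have tc : ∀ h g, κ g * (κ' h - 1) = (κ' h - 1) * κ g := by
    intro h g
    rw [mul_sub, sub_mul, cm, mul_one, one_mul]
  have tc' : ∀ g h, κ' h * (κ g - 1) = (κ g - 1) * κ' h := by
    intro g h
    rw [mul_sub, sub_mul, cm, mul_one, one_mul]
  have h4 : ∀ g, κ g * (κ' (t * s⁻¹) - 1) = κ' (t * s⁻¹) - 1 := by
    apply ann_all hQ κ _ (tc _) hxyc
    linear_combination (norm := noncomm_ring) h3
  intro g h
  have h5 : ∀ h, κ' h * (κ g - 1) = κ g - 1 := by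
    apply ann_all hQ κ' _ (tc' g) htsc
    linear_combination (norm := noncomm_ring) h4 g + cm (t * s⁻¹) g
  linear_combination (norm := noncomm_ring) h5 h - cm h g

/-- `[V, κ Q]` -/
def W0 (κ : Q →* Module.End (ZMod p) V) : Submodule (ZMod p) V :=
  Submodule.span (ZMod p) {w | ∃ h v, w = κ h v - v}

theorem sub_mem_W0 (κ : Q →* Module.End (ZMod p) V) (g : Q) (v : V) : κ g v - v ∈ W0 κ :=
  Submodule.subset_span ⟨g, v, rfl⟩

theorem W0_inv (κ : Q →* Module.End (ZMod p) V) (x : Q) (u : V) (hu : u ∈ W0 κ) :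
    κ x u ∈ W0 κ := by
  have : κ x u = (κ x u - u) + u := by abel
  rw [this]
  exact (W0 κ).add_mem (sub_mem_W0 κ x u) hu

theorem W0_map (κ : Q →* Module.End (ZMod p) V) (γ : Module.End (ZMod p) V)
    (h : ∀ x, ∃ y, γ * κ x = κ y * γ) (u : V) (hu : u ∈ W0 κ) : γ u ∈ W0 κ := by
  have : W0 κ ≤ (W0 κ).comap γ := by
    apply Submodule.span_le.2
    rintro _ ⟨x, v, rfl⟩
    obtain ⟨y, hy⟩ := h x
    have e := congrArg (fun f => f v) hy
    simp only [Module.End.mul_apply] at e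
    change γ (κ x v - v) ∈ W0 κ
    rw [map_sub, e]
    exact sub_mem_W0 κ y (γ v)
  exact this hu

/-- (O5) -/
theorem triv_of_ann (hQ : QSG Q) {α : 𝔄 →* Module.End (ZMod p) V}
    {κ : Q →* Module.End (ZMod p) V} {a d : 𝔄} (hda : d * a = a * d)
    (hO1 : (α d - 1) * (α a - 1) = 0) (Nd : Nrm α κ d) (Ndi : Nrm α κ d⁻¹)
    (hdnc : ¬ ∀ x, Commute (α d) (κ x))
    (hO4 : ∀ g h, (κ g - 1) * (cj α κ a h - 1) = 0) : ∀ x, κ x = 1 := by
  set δ := α d with hδ
  set δi := α d⁻¹ with hδi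
  have hδ1 : δ * δi = 1 := hom_mul_inv α d
  have hδ2 : δi * δ = 1 := hom_inv_mul α d
  set κ' := cj α κ a with hκ'
  have hA1 : δ * α a = α a * δ := by rw [hδ, ← map_mul, ← map_mul, hda]
  have hA3 : α a⁻¹ * δi = δi * α a⁻¹ := by
    rw [hδi, ← map_mul, ← map_mul, ← mul_inv_rev, ← mul_inv_rev, hda]
  have Nd' : ∀ x, ∃ y, δ * κ x = κ y * δ := by
    intro x
    obtain ⟨y, hy⟩ := Nd x
    exact ⟨y, by rw [← hy, mul_assoc, hδ2, mul_one]⟩
  have Ndi' : ∀ x, ∃ y, δi * κ x = κ y * δi := by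
    intro x
    obtain ⟨y, hy⟩ := Ndi x
    rw [inv_inv] at hy
    exact ⟨y, by rw [← hy, mul_assoc, hδ1, mul_one]⟩
  have kA : ∀ h, α a * κ h = κ' h * α a := by
    intro h
    rw [hκ', cj_apply, mul_assoc, hom_inv_mul, mul_one]
  have kδ : ∀ h, ∃ h', δ * κ' h = κ' h' * δ := by
    intro h
    obtain ⟨y, hy⟩ := Nd h
    refine ⟨y, ?_⟩
    rw [hκ', cj_apply, cj_apply, ← hy]
    calc δ * (α a * κ h * α a⁻¹) = (δ * α a) * κ h * (α a⁻¹ * (δi * δ)) := by
          rw [hδ2, mul_one]; simp only [mul_assoc]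
      _ = (δ * α a) * κ h * ((α a⁻¹ * δi) * δ) := by simp only [mul_assoc]
      _ = _ := by rw [hA1, hA3]; simp only [mul_assoc, hδ, hδi]
  have key : ∀ g h, (κ g - 1) * ((δ - 1) * (κ h - 1)) = 0 := by
    intro g h
    obtain ⟨h', hh'⟩ := kδ h
    have z1 := hO4 g h
    have z2 := hO4 g h'
    have e1 : (δ - 1) * (κ h - 1) = ((κ' h' - 1) * δ - (κ' h - 1)) * α a := by
      linear_combination (norm := noncomm_ring) (-1 : Module.End (ZMod p) V) * hO1 * (κ h - 1)
        + hA1 * (κ h - 1) + (δ - 1) * (kA h) + hh' * α a - hA1 * (κ h - 1)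
    rw [e1]
    linear_combination (norm := noncomm_ring) z2 * δ * α a - z1 * α a
  set F := fixS κ ⊤ with hF
  have hFfix : ∀ g, ∀ y ∈ F, κ g y = y := fun g y hy => hy g (Subgroup.mem_top g)
  have hFinv : ∀ x, ∀ u ∈ F, κ x u ∈ F := fun x u hu => by rw [hFfix x u hu]; exact hu
  have hWF : ∀ u ∈ W0 κ, δ u - u ∈ F := by
    have : W0 κ ≤ F.comap (δ - 1) := by
      apply Submodule.span_le.2
      rintro _ ⟨h, v, rfl⟩
      intro g _
      have e := congrArg (fun f => f v) (key g h)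
      simp only [Module.End.mul_apply, LinearMap.sub_apply, Module.End.one_apply,
        LinearMap.zero_apply] at e
      simp only [LinearMap.sub_apply, Module.End.one_apply]
      exact sub_eq_zero.1 e
    intro u hu
    exact this hu
  have hWδi : ∀ u ∈ W0 κ, δi u ∈ W0 κ := W0_map κ δi Ndi'
  have hWFi : ∀ u ∈ W0 κ, u - δi u ∈ F := by
    intro u hu
    have := hWF _ (hWδi u hu)
    rwa [hδ, hδi, hom_apply_inv_apply] at this
  obtain ⟨t, s, hts, htsc⟩ := exists_noncentral_comm hQ κ δ δi hδ1 hδ2 Nd hdnc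
  have hx : ∀ u ∈ W0 κ, κ (t * s⁻¹) u - u ∈ F := by
    intro u hu
    set u' := κ s⁻¹ u with hu'
    have hu'W : u' ∈ W0 κ := W0_inv κ _ u hu
    have e1 : κ (t * s⁻¹) u = κ t u' := by rw [map_mul]; rfl
    have e2 : u = δ (κ t (δi u')) := by
      have := congrArg (fun f => f u') hts
      simp only [Module.End.mul_apply] at this
      rw [this, hu', hom_apply_inv_apply]
    have f1 : κ t (u' - δi u') ∈ F := hFinv _ _ (hWFi u' hu'W)
    have f2 := hWF _ (W0_inv κ t _ (hWδi u' hu'W))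
    have e3 : κ (t * s⁻¹) u - u = κ t (u' - δi u') - (δ (κ t (δi u')) - κ t (δi u')) := by
      rw [e1, map_sub]
      conv_lhs => rw [e2]
      abel
    rw [e3]
    exact F.sub_mem f1 f2
  have hall := sec_all_of_noncentral hQ κ (W0 κ) F (W0_inv κ) hFinv hx htsc
  exact triv_of_three_step hQ κ (W0 κ) F (sub_mem_W0 κ) hall hFfix

variable [Finite 𝔄] [Finite V] [Finite Q]

/-- **The `P(G,V)`-theorem, `p` odd** (piece 2 of #554).  `hrepl` is the second half of `repl`. -/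
theorem odd_case (hQ : QSG Q) (hp2 : p ≠ 2) (ih : IH.{u, v, w} p Q (Nat.card V))
    {α : 𝔄 →* Module.End (ZMod p) V} {κ : Q →* Module.End (ZMod p) V} (hc : Cfg α κ) {a : 𝔄}
    (ha : Mov α κ a)
    (hrepl : (∀ d, (∀ b v, α d (α b v - v) = α b v - v) → α d = 1) → ∀ b, α b = 1) :
    ∀ x, κ x = 1 := by
  by_contra hnt
  have O1 : ∀ d ∈ Dsub α, ∀ b, (α d - 1) * (α b - 1) = 0 := by
    intro d hd b
    apply LinearMap.ext
    intro v
    have := hd b v
    simp only [Module.End.mul_apply, LinearMap.sub_apply, Module.End.one_apply,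
      LinearMap.zero_apply]
    rw [this, sub_self]
  have hquad : ∀ d ∈ Dsub α, α d * α d = 2 * α d - 1 := by
    intro d hd
    linear_combination (norm := noncomm_ring) O1 d hd d
  have O2 : ∀ d ∈ Dsub α, Nrm α κ d := fun d hd =>
    nrm_of_quad hQ hp2 hnt hc.k3 d (hc.exp d) (hquad d hd)
  obtain ⟨d, hd, hdnc⟩ : ∃ d ∈ Dsub α, ¬ ∀ x, Commute (α d) (κ x) := by
    by_contra hcon
    push Not at hcon
    have h1 := triv_of_centralizes hQ ih hc ha hnt (Dsub α) hcon
    have h2 := hrepl h1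
    apply hnt
    apply triv_of_comm hQ
    intro x y
    have := ha x y
    rwa [h2 a, h2 a⁻¹, one_mul, mul_one] at this
  have Nd := O2 d hd
  have Ndi := O2 d⁻¹ (inv_mem hd)
  exact hnt (triv_of_ann hQ (hc.comm d a) (O1 d hd a) Nd Ndi hdnc
    (ann_of_quad hQ hp2 ha (hc.comm d a) (hquad d hd) Nd Ndi hdnc))

end main

end Cfsg.Agent.Lib.Helper73.PGVOdd
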