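import Mathlib
import Cfsg.Prelude.Def_CaseTheorems
import Cfsg.Agent.Lib.Helper73.Taussky
import Cfsg.Agent.Lib.Lead.Cores

set_option autoImplicit false

namespace Cfsg.Agent.Lib.Helper73

open Cfsg

/-- sectional rank bound, elementwise form: `N ≤ H`, `H` normalizes `N`, squares of `H` in `N`. -/
theorem section_bound' {S : Type*} [Group S] [Finite S] (k : ℕ) (hr : Cfsg.SectionalPRankLE 2 k S)
    (H N : Subgroup S) (hle : N ≤ H) (hn : ∀ h ∈ H, ∀ n ∈ N, h * n * h⁻¹ ∈ N)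
    (hsq : ∀ h ∈ H, h ^ 2 ∈ N) :
    Nat.card H ≤ 2 ^ k * Nat.card N := by
  have hN : (N.subgroupOf H).Normal := by
    refine ⟨fun n hn' h => ?_⟩
    rw [Subgroup.mem_subgroupOf] at hn' ⊢
    exact hn h h.2 n hn'
  have hq : ∀ a : H ⧸ N.subgroupOf H, a ^ 2 = 1 := by
    intro a
    obtain ⟨h, rfl⟩ := QuotientGroup.mk'_surjective _ a
    rw [← map_pow, QuotientGroup.mk'_apply, QuotientGroup.eq_one_iff, Subgroup.mem_subgroupOf]
    exact hsq h h.2
  have hcomm : IsMulCommutative (⊤ : Subgroup (H ⧸ N.subgroupOf H)) :=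
    ⟨⟨fun a b => Subtype.ext (comm_of_sq_eq_one hq a b)⟩⟩
  have h1 := hr H (N.subgroupOf H) ⊤ hcomm (fun a _ => hq a)
  rw [Subgroup.card_top] at h1
  rw [Subgroup.card_eq_card_quotient_mul_card_subgroup (N.subgroupOf H),
    Nat.card_congr (Subgroup.subgroupOfEquivOfLe hle).toEquiv]
  exact Nat.mul_le_mul_right _ h1

/-- converse: the elementwise bound gives the sectional rank bound -/
theorem sectional_of_bound {S : Type*} [Group S] [Finite S] (k : ℕ)
    (hb : ∀ H N : Subgroup S, N ≤ H → (∀ h ∈ H, ∀ n ∈ N, h * n * h⁻¹ ∈ N) →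
      (∀ h ∈ H, h ^ 2 ∈ N) → Nat.card H ≤ 2 ^ k * Nat.card N) :
    Cfsg.SectionalPRankLE 2 k S := by
  intro H N hN A _ hAe
  have h1 := hb ((A.comap (QuotientGroup.mk' N)).map H.subtype) (N.map H.subtype) ?_ ?_ ?_
  · rw [Subgroup.card_map_of_injective (Subgroup.subtype_injective H),
      Subgroup.card_map_of_injective (Subgroup.subtype_injective H),
      Cfsg.Agent.Lib.Lead.card_comap_mk', mul_comm] at h1
    exact Nat.le_of_mul_le_mul_right h1 Nat.card_pos
  · apply Subgroup.map_mono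
    intro n hn
    rw [Subgroup.mem_comap]
    have : QuotientGroup.mk' N n = 1 := (QuotientGroup.eq_one_iff n).mpr hn
    rw [this]; exact one_mem _
  · rintro _ ⟨b, _, rfl⟩ _ ⟨n, hn, rfl⟩
    exact ⟨b * n * b⁻¹, hN.conj_mem n hn b, by simp⟩
  · rintro _ ⟨b, hb', rfl⟩
    refine ⟨b ^ 2, ?_, by simp⟩
    rw [SetLike.mem_coe, ← QuotientGroup.eq_one_iff]
    have := hAe _ hb'
    rwa [← map_pow] at this

/-- the sectional rank bound passes to subgroups -/
theorem sectional_subgroup {S : Type*} [Group S] [Finite S] (k : ℕ)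
    (hr : Cfsg.SectionalPRankLE 2 k S) (T : Subgroup S) : Cfsg.SectionalPRankLE 2 k ↥T := by
  apply sectional_of_bound
  intro H N hle hn hsq
  have h1 := section_bound' k hr (H.map T.subtype) (N.map T.subtype) (Subgroup.map_mono hle) ?_ ?_
  · rwa [Subgroup.card_map_of_injective (Subgroup.subtype_injective T),
      Subgroup.card_map_of_injective (Subgroup.subtype_injective T)] at h1
  · rintro _ ⟨h, hh, rfl⟩ _ ⟨n, hn', rfl⟩
    exact ⟨h * n * h⁻¹, hn h hh n hn', by simp⟩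
  · rintro _ ⟨h, hh, rfl⟩
    exact ⟨h ^ 2, hsq h hh, by simp⟩

/-- sectional rank of a subgroup from an elementwise bound inside it -/
theorem sectional_subgroup_of_bound {S : Type*} [Group S] [Finite S] (k : ℕ) (T : Subgroup S)
    (hb : ∀ H N : Subgroup S, H ≤ T → N ≤ H → (∀ h ∈ H, ∀ n ∈ N, h * n * h⁻¹ ∈ N) →
      (∀ h ∈ H, h ^ 2 ∈ N) → Nat.card H ≤ 2 ^ k * Nat.card N) :
    Cfsg.SectionalPRankLE 2 k ↥T := by
  apply sectional_of_bound
  intro H N hle hn hsq
  have h1 := hb (H.map T.subtype) (N.map T.subtype) (Subgroup.map_subtype_le H)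
    (Subgroup.map_mono hle) ?_ ?_
  · rwa [Subgroup.card_map_of_injective (Subgroup.subtype_injective T),
      Subgroup.card_map_of_injective (Subgroup.subtype_injective T)] at h1
  · rintro _ ⟨h, hh, rfl⟩ _ ⟨n, hn', rfl⟩
    exact ⟨h * n * h⁻¹, hn h hh n hn', by simp⟩
  · rintro _ ⟨h, hh, rfl⟩
    exact ⟨h ^ 2, hsq h hh, by simp⟩

end Cfsg.Agent.Lib.Helper73
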