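import Cfsg.Agent.Lib.Helper73.MaxClass

set_option autoImplicit false

/-! The subgroup generated by squares, index-two subgroups of 2-groups. -/

namespace Cfsg.Agent.Lib.Helper73

open scoped commutatorElement

/-- the closure of a conjugation invariant set is normal -/
theorem closure_normal_of_conj {G : Type*} [Group G] (s : Set G)
    (h : ∀ g x : G, x ∈ s → g * x * g⁻¹ ∈ s) : (Subgroup.closure s).Normal := by
  refine ⟨fun n hn g => ?_⟩
  induction hn using Subgroup.closure_induction with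
  | mem x hx => exact Subgroup.subset_closure (h g x hx)
  | one => simp
  | mul x y _ _ ihx ihy =>
    have e : g * (x * y) * g⁻¹ = (g * x * g⁻¹) * (g * y * g⁻¹) := by group
    rw [e]; exact mul_mem ihx ihy
  | inv x _ ih =>
    have e : g * x⁻¹ * g⁻¹ = (g * x * g⁻¹)⁻¹ := by group
    rw [e]; exact inv_mem ih

/-- a non-cyclic finite 2-group has two distinct subgroups of index two -/
theorem exists_two_index_two {X : Type*} [Group X] [Finite X] (hX : IsPGroup 2 X)
    (hnc : ¬ IsCyclic X) : ∃ M1 M2 : Subgroup X, M1.index = 2 ∧ M2.index = 2 ∧ M1 ≠ M2 := by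
  have : Fact (Nat.Prime 2) := ⟨Nat.prime_two⟩
  obtain ⟨n, hn⟩ := IsPGroup.iff_card.mp hX
  have hn1 : 1 ≤ n := by
    rcases n with _ | n
    · exfalso
      rw [pow_zero] at hn
      have : Subsingleton X := (Nat.card_eq_one_iff_unique.mp hn).1
      exact hnc inferInstance
    · omega
  obtain ⟨m, rfl⟩ : ∃ m, n = m + 1 := ⟨n - 1, by omega⟩
  have hidx : ∀ M : Subgroup X, Nat.card M = 2 ^ m → M.index = 2 := by
    intro M hM
    have := M.card_mul_index
    rw [hM, hn, pow_succ] at this
    exact Nat.eq_of_mul_eq_mul_left (by positivity) this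
  obtain ⟨M1, hM1⟩ := Sylow.exists_subgroup_card_pow_prime (G := X) 2 (n := m)
    (by rw [hn]; exact pow_dvd_pow 2 (by omega))
  obtain ⟨x, hx⟩ : ∃ x : X, x ∉ M1 := by
    by_contra hcon
    push Not at hcon
    have : M1 = ⊤ := eq_top_iff.mpr fun x _ => hcon x
    rw [this, Subgroup.card_top, hn] at hM1
    have := Nat.pow_right_injective (le_refl 2) hM1
    omega
  obtain ⟨j, hj⟩ := hX.exists_orderOf_eq_pow x
  have hjm : j ≤ m := by
    by_contra hcon
    have h1 : orderOf x ∣ Nat.card X := orderOf_dvd_natCard x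
    rw [hj, hn] at h1
    have h2 := (Nat.pow_dvd_pow_iff_le_right (by norm_num)).mp h1
    have h3 : j = m + 1 := by omega
    exact hnc (isCyclic_of_orderOf_eq_card x (by rw [hj, hn, h3]))
  obtain ⟨M2, hM2, hle⟩ := Sylow.exists_subgroup_card_pow_prime_le (G := X) 2 (n := j) (m := m)
    (by rw [hn]; exact pow_dvd_pow 2 (by omega)) (Subgroup.zpowers x)
    (by rw [Nat.card_zpowers, hj]) hjm
  refine ⟨M1, M2, hidx M1 hM1, hidx M2 hM2, ?_⟩
  rintro rfl
  exact hx (hle (Subgroup.mem_zpowers x))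

/-- the subgroup generated by the squares of the elements of `H` -/
def sqClosure {G : Type*} [Group G] (H : Subgroup G) : Subgroup G :=
  Subgroup.closure {y : G | ∃ x ∈ H, y = x ^ 2}

theorem sq_mem_sqClosure {G : Type*} [Group G] (H : Subgroup G) {x : G} (hx : x ∈ H) :
    x ^ 2 ∈ sqClosure H := Subgroup.subset_closure ⟨x, hx, rfl⟩

theorem sqClosure_le {G : Type*} [Group G] (H : Subgroup G) : sqClosure H ≤ H := by
  unfold sqClosure
  rw [Subgroup.closure_le]
  rintro _ ⟨x, hx, rfl⟩
  exact pow_mem hx 2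

theorem sqClosure_normal {G : Type*} [Group G] (H : Subgroup G) [hH : H.Normal] :
    (sqClosure H).Normal := by
  apply closure_normal_of_conj
  rintro g _ ⟨x, hx, rfl⟩
  exact ⟨g * x * g⁻¹, hH.conj_mem x hx g, by rw [conj_pow]⟩

theorem commutatorElement_mem_sqClosure {G : Type*} [Group G] (H : Subgroup G) {x y : G}
    (hx : x ∈ H) (hy : y ∈ H) : ⁅x, y⁆ ∈ sqClosure H := by
  have e : ⁅x, y⁆ = (x * y) ^ 2 * (y⁻¹ * x⁻¹ * y) ^ 2 * (y⁻¹) ^ 2 := by
    rw [commutatorElement_def, sq, sq, sq]; group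
  rw [e]
  exact mul_mem (mul_mem (sq_mem_sqClosure H (mul_mem hx hy))
    (sq_mem_sqClosure H (mul_mem (mul_mem (inv_mem hy) (inv_mem hx)) hy)))
    (sq_mem_sqClosure H (inv_mem hy))

theorem commutator_le_comap_sqClosure {G : Type*} [Group G] (H : Subgroup G) :
    commutator H ≤ (sqClosure H).comap H.subtype := by
  rw [commutator_eq_closure, Subgroup.closure_le]
  rintro _ ⟨x, y, rfl⟩
  rw [SetLike.mem_coe, Subgroup.mem_comap, map_commutatorElement]
  exact commutatorElement_mem_sqClosure H x.2 y.2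

/-- in a non-cyclic 2-subgroup the squares generate a subgroup of index at least four -/
theorem four_mul_card_sqClosure_le {G : Type*} [Group G] [Finite G] (H : Subgroup G)
    (hH : IsPGroup 2 H) (hnc : ¬ IsCyclic H) : 4 * Nat.card (sqClosure H) ≤ Nat.card H := by
  obtain ⟨M1, M2, h1, h2, hne⟩ := exists_two_index_two hH hnc
  have hle : sqClosure H ≤ (M1 ⊓ M2).map H.subtype := by
    unfold sqClosure
    rw [Subgroup.closure_le]
    rintro _ ⟨x, hx, rfl⟩
    exact ⟨⟨x, hx⟩ ^ 2, ⟨Subgroup.sq_mem_of_index_two h1 _, Subgroup.sq_mem_of_index_two h2 _⟩, rfl⟩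
  have hc1 : Nat.card (sqClosure H) ≤ Nat.card ((M1 ⊓ M2 : Subgroup H)) := by
    have := Subgroup.card_le_of_le hle
    rwa [Subgroup.card_map_of_injective H.subtype_injective] at this
  have hc2 : 2 * Nat.card ((M1 ⊓ M2 : Subgroup H)) ≤ Nat.card M1 := by
    obtain ⟨t, ht⟩ := Subgroup.card_dvd_of_le (inf_le_left : M1 ⊓ M2 ≤ M1)
    have hpos : 0 < Nat.card M1 := Nat.card_pos
    have ht1 : t ≠ 1 := by
      rintro rfl
      rw [mul_one] at ht
      have h3 : M1 ⊓ M2 = M1 := Subgroup.eq_of_le_of_card_ge inf_le_left (by rw [ht])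
      have h4 : M1 ≤ M2 := by rw [← h3]; exact inf_le_right
      apply hne
      apply Subgroup.eq_of_le_of_card_ge h4
      have e1 := M1.card_mul_index
      have e2 := M2.card_mul_index
      rw [h1] at e1; rw [h2] at e2
      omega
    have ht0 : t ≠ 0 := by rintro rfl; omega
    have : 2 ≤ t := by omega
    rw [ht, mul_comm]
    exact Nat.mul_le_mul_left _ this
  have e1 := M1.card_mul_index
  rw [h1] at e1
  omega

end Cfsg.Agent.Lib.Helper73
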