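import Cfsg.Agent.Lib.Helper75.Necklace
import Cfsg.Agent.Lib.Helper73.CycNormal
import Cfsg.Agent.S4370

set_option autoImplicit false

/-! Semiregular action of a cyclic `p`-group by conjugation: counting. -/

namespace Cfsg.Agent.Lib.Helper73

/-- every nontrivial subgroup of a cyclic `p`-group contains the subgroup of order `p` -/
theorem pow_mem_zpowers_of_ne_one {X : Type*} [Group X] [Finite X] {p : ℕ} [hp : Fact p.Prime]
    (d : X) (n : ℕ) (hn : 1 ≤ n) (hd : orderOf d = p ^ n) (g : X) (hg : g ∈ Subgroup.zpowers d)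
    (hg1 : g ≠ 1) : d ^ (p ^ (n - 1)) ∈ Subgroup.zpowers g := by
  have hdvd : orderOf g ∣ p ^ n := by
    rw [← hd]
    exact orderOf_dvd_of_mem_zpowers hg
  obtain ⟨b, hb, hgb⟩ := (Nat.dvd_prime_pow hp.out).mp hdvd
  have hb1 : 1 ≤ b := by
    rcases b with _ | b
    · rw [pow_zero, orderOf_eq_one_iff] at hgb; exact absurd hgb hg1
    · omega
  have ho1 : orderOf (g ^ (p ^ (b - 1))) = p := by
    rw [orderOf_pow_of_dvd (pow_ne_zero _ hp.out.ne_zero) (by rw [hgb]; exact pow_dvd_pow p (by omega)),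
      hgb, Nat.pow_div (by omega) hp.out.pos]
    have : b - (b - 1) = 1 := by omega
    rw [this, pow_one]
  have ho2 : orderOf (d ^ (p ^ (n - 1))) = p := by
    rw [orderOf_pow_of_dvd (pow_ne_zero _ hp.out.ne_zero) (by rw [hd]; exact pow_dvd_pow p (by omega)),
      hd, Nat.pow_div (by omega) hp.out.pos]
    have : n - (n - 1) = 1 := by omega
    rw [this, pow_one]
  have h1 := Cfsg.Agent.S4370.mem_zpowers_of_isCyclic (C := ↥(Subgroup.zpowers d))
    ⟨d ^ (p ^ (n - 1)), pow_mem (Subgroup.mem_zpowers d) _⟩ ⟨g ^ (p ^ (b - 1)), pow_mem hg _⟩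
    (by rw [Subgroup.orderOf_mk, Subgroup.orderOf_mk, ho1, ho2])
  obtain ⟨i, hi⟩ := Subgroup.mem_zpowers_iff.mp h1
  have hi' := congrArg Subtype.val hi
  rw [Subgroup.coe_zpow] at hi'
  change (g ^ (p ^ (b - 1))) ^ i = d ^ (p ^ (n - 1)) at hi'
  rw [← hi']
  exact zpow_mem (pow_mem (Subgroup.mem_zpowers g) _) _

/-- `d` of order `p ^ n` normalises `F ≤ Q` and the element of order `p` in `⟨d⟩` has all its
fixed points on `Q` inside `F`: then `p ^ n` divides `|Q| - |F|`. -/
theorem pow_dvd_card_sub_card {X : Type*} [Group X] [Finite X] {p : ℕ} [hp : Fact p.Prime]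
    (d : X) (n : ℕ) (hn : 1 ≤ n) (hd : orderOf d = p ^ n) (Q F : Subgroup X) (hFQ : F ≤ Q)
    (hQ : ∀ x ∈ Q, d * x * d⁻¹ ∈ Q) (hF : ∀ x ∈ F, d * x * d⁻¹ ∈ F)
    (hfix : ∀ x ∈ Q, d ^ (p ^ (n - 1)) * x = x * d ^ (p ^ (n - 1)) → x ∈ F) :
    p ^ n ∣ Nat.card Q - Nat.card F := by
  classical
  have := Fintype.ofFinite X
  have hpow : ∀ (K : Subgroup X), (∀ x ∈ K, d * x * d⁻¹ ∈ K) →
      ∀ g ∈ Subgroup.zpowers d, ∀ x, x ∈ K ↔ g * x * g⁻¹ ∈ K := by
    intro K hK
    have h1 : ∀ g ∈ Subgroup.zpowers d, ∀ x ∈ K, g * x * g⁻¹ ∈ K := by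
      intro g hg
      obtain ⟨j, rfl⟩ := exists_pow_of_mem_zpowers d g hg
      induction j with
      | zero => intro x hx; simpa using hx
      | succ j ih =>
        intro x hx
        have := hK _ (ih (pow_mem (Subgroup.mem_zpowers d) j) x hx)
        have e : d ^ (j + 1) * x * (d ^ (j + 1))⁻¹ = d * (d ^ j * x * (d ^ j)⁻¹) * d⁻¹ := by
          rw [pow_succ']; group
        rw [e]; exact this
    intro g hg x
    refine ⟨h1 g hg x, fun h => ?_⟩
    have := h1 g⁻¹ (inv_mem hg) _ h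
    have e : g⁻¹ * (g * x * g⁻¹) * g⁻¹⁻¹ = x := by group
    rwa [e] at this
  let Γ : Subgroup (ConjAct X) := (Subgroup.zpowers d).map ConjAct.toConjAct.toMonoidHom
  have hΓ : ∀ γ : Γ, ∃ g ∈ Subgroup.zpowers d, ∀ w : X, γ • w = g * w * g⁻¹ := by
    rintro ⟨γ, g, hg, rfl⟩
    exact ⟨g, hg, fun w => rfl⟩
  let f : X → ℤ := fun w => if w ∈ Q ∧ w ∉ F then 1 else 0
  have h := Cfsg.Agent.Lib.Helper75.orbit_sum_dvd (Γ := Γ) f (by
    intro γ w
    obtain ⟨g, hg, hgw⟩ := hΓ γ
    simp only [f]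
    rw [hgw, ← hpow Q hQ g hg w, ← hpow F hF g hg w]) (p ^ n) (by
    intro w
    by_cases hw : w ∈ Q ∧ w ∉ F
    · right
      have h1 : (MulAction.orbit Γ w).ncard = Nat.card Γ := by
        apply Set.ncard_range_of_injective
        rintro ⟨_, a, ha, rfl⟩ ⟨_, b, hb, rfl⟩ hab
        apply Subtype.ext
        change a * w * a⁻¹ = b * w * b⁻¹ at hab
        change ConjAct.toConjAct a = ConjAct.toConjAct b
        congr 1
        by_contra hne
        have hg1 : b⁻¹ * a ≠ 1 := by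
          intro h1
          exact hne (by rw [← mul_one b, ← h1]; group)
        have hmem := pow_mem_zpowers_of_ne_one d n hn hd (b⁻¹ * a)
          (mul_mem (inv_mem hb) ha) hg1
        have hcomm : (b⁻¹ * a) * w = w * (b⁻¹ * a) := by
          calc (b⁻¹ * a) * w = b⁻¹ * (a * w * a⁻¹) * a := by group
            _ = w * (b⁻¹ * a) := by rw [hab]; group
        obtain ⟨i, hi⟩ := Subgroup.mem_zpowers_iff.mp hmem
        apply hw.2
        apply hfix w hw.1
        rw [← hi]
        exact (Commute.zpow_left hcomm i).eq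
      rw [h1]
      have : Nat.card Γ = p ^ n := by
        rw [Subgroup.card_map_of_injective ConjAct.toConjAct.injective, Nat.card_zpowers, hd]
      rw [this]
    · left
      simp only [f]
      rw [if_neg hw])
  have hsum : ∑ w, f w = ((Nat.card Q - Nat.card F : ℕ) : ℤ) := by
    simp only [f]
    rw [Finset.sum_boole]
    congr 1
    have h1 : (Finset.univ.filter (fun w : X => w ∈ Q ∧ w ∉ F)) =
        (Finset.univ.filter (fun w : X => w ∈ Q)) \ (Finset.univ.filter (fun w : X => w ∈ F)) := by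
      ext w; simp
    rw [h1, Finset.card_sdiff_of_subset (by
      intro w hw
      rw [Finset.mem_filter] at hw ⊢
      exact ⟨hw.1, hFQ hw.2⟩)]
    rw [Nat.card_eq_fintype_card, Nat.card_eq_fintype_card, Fintype.card_subtype,
      Fintype.card_subtype]
  rw [hsum] at h
  exact_mod_cast h

end Cfsg.Agent.Lib.Helper73
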