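import Cfsg.Agent.Lib.Helper73.OTBlocks

set_option autoImplicit false
set_option maxRecDepth 100000

/-! The solvable group `AΓL(1,8)` of order 168 and its table. -/

namespace Cfsg.Agent.Lib.Helper73.OT

/-- additive group of the field with 8 elements, basis `1, α, α²`, `α³ = α + 1` -/
abbrev V3 := ZMod 2 × ZMod 2 × ZMod 2

/-- multiplication by `α` -/
def mulA (x : V3) : V3 := (x.2.2, x.1 + x.2.2, x.2.1)
/-- the Frobenius map -/
def frob (x : V3) : V3 := (x.1, x.2.2, x.2.1 + x.2.2)

def actG : Act F21 V3 where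
  toFun t x := mulA^[t.v.val] (frob^[(Multiplicative.toAdd t.t).val] x)
  one' := by decide
  mul' := by decide +kernel
  add' := by decide +kernel

abbrev G168 := SD actG

theorem exp_G168 : ∀ x : G168, x ^ 84 = 1 := by decide +kernel

theorem cnt_G168 (n : ℕ) :
    cnt G168 n = lk [1, 8, 57, 8, 120, 49, 120, 56, 105, 56, 168, 168] (Nat.gcd n 84) :=
  cnt_table _ exp_G168 (by decide +kernel) n

end Cfsg.Agent.Lib.Helper73.OT
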