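import Mathlib
import Cfsg.Prelude.Def_Local
import Cfsg.Prelude.Def_Transfer
import Cfsg.Agent.Lib.Helper51.PGVCfg
import Cfsg.Agent.Lib.Helper31.Components

/-! The `P(G,V)`-theorem: reduction of the group statement to the module statement
(piece 3 of helper51's plan for S3086). -/

set_option autoImplicit false

namespace Cfsg.Agent.Lib.Helper73.PGVFinal

open Cfsg.Agent.Lib.Helper51.PGV

universe u v

theorem qsg_of_isQuasisimple {Q : Type*} [Group Q] (h : Cfsg.IsQuasisimple Q) : QSG Q := by
  obtain ⟨hperf, -, hdich⟩ := Cfsg.Agent.Lib.Helper31.isQuasisimple_iff.1 h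
  refine ⟨?_, hdich⟩
  have := hperf.commutator_eq_top
  rwa [commutator_def] at this

theorem assemble {G : Type u} {V : Type v} [Group G] [Finite G] [AddCommGroup V] [Finite V] (p : ℕ)
    [Fact p.Prime] [Module (ZMod p) V]
    (ρ : Representation (ZMod p) G V) (hρ : Function.Injective ρ) (A : Subgroup G)
    (hAel : Cfsg.IsElementaryAbelian p A)
    (hP : ∀ B : Subgroup G, B ≤ A →
      Nat.card ↥B * Nat.card {v : V // ∀ b ∈ B, ρ b v = v} ≤
        Nat.card ↥A * Nat.card {v : V // ∀ a ∈ A, ρ a v = v})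
    (K : Subgroup G) (hK : Cfsg.IsComponent K)
    (main : QSG ↥K → ∀ (α : ↥A →* Module.End (ZMod p) V) (κ : ↥K →* Module.End (ZMod p) V),
      Cfg α κ → (∃ a, Mov α κ a) → ∀ x, κ x = 1) :
    A ≤ Subgroup.normalizer (K : Set G) := by
  have hQ : QSG ↥K := qsg_of_isQuasisimple hK.2
  let ρ' : G →* Module.End (ZMod p) V := ρ
  set α : ↥A →* Module.End (ZMod p) V := ρ'.comp A.subtype with hα
  set κ : ↥K →* Module.End (ZMod p) V := ρ'.comp K.subtype with hκ
  have hconj : ∀ (b : A) (x : K), α b * κ x * α b⁻¹ = ρ' ((b : G) * x * (b : G)⁻¹) := by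
    intro b x
    simp only [hα, hκ, MonoidHom.comp_apply, Subgroup.coe_subtype, Subgroup.coe_inv, map_mul]
  have hcomp : ∀ b : G, Cfsg.IsComponent (K.map (MulAut.conj b).toMonoidHom) := fun b =>
    Cfsg.Agent.Lib.Helper31.IsComponent.map_equiv hK (MulAut.conj b)
  have hmem : ∀ (b : G) (x : G), x ∈ K → b * x * b⁻¹ ∈ K.map (MulAut.conj b).toMonoidHom :=
    fun b x hx => ⟨x, hx, by simp [MulAut.conj_apply]⟩
  have hmov : ∀ b : A, K.map (MulAut.conj (b : G)).toMonoidHom ≠ K → Mov α κ b := by
    intro b hne x y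
    have h1 := Cfsg.Agent.Lib.Helper31.IsComponent.commutator_eq_bot_of_ne (hcomp b) hK hne
    rw [Subgroup.commutator_eq_bot_iff_le_centralizer] at h1
    have h2 := Subgroup.mem_centralizer_iff.1 (h1 (hmem b x x.2)) y y.2
    rw [hconj]
    change ρ' _ * ρ' (y : G) = ρ' (y : G) * ρ' _
    rw [← map_mul, ← map_mul, h2]
  have hcfg : Cfg α κ := by
    refine ⟨fun x y => hAel.1.is_comm.comm x y, fun x => Subtype.ext (hAel.2 x x.2), ?_, ?_⟩
    · intro B
      have h1 := hP (B.map A.subtype) (Subgroup.map_subtype_le B)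
      have e1 : Nat.card ↥(B.map A.subtype) = Nat.card B :=
        Subgroup.card_map_of_injective A.subtype_injective
      have e2 : Nat.card {v : V // ∀ b ∈ B.map A.subtype, ρ b v = v} = Nat.card (fixS α B) := by
        apply Nat.card_congr
        apply Equiv.subtypeEquivRight
        intro v
        constructor
        · intro h b hb
          exact h b (Subgroup.mem_map_of_mem _ hb)
        · rintro h _ ⟨b, hb, rfl⟩
          exact h b hb
      have e3 : Nat.card {v : V // ∀ a ∈ A, ρ a v = v} = Nat.card (fixS α ⊤) := by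
        apply Nat.card_congr
        apply Equiv.subtypeEquivRight
        intro v
        constructor
        · intro h b _
          exact h b b.2
        · intro h a ha
          exact h ⟨a, ha⟩ (Subgroup.mem_top _)
      rwa [e1, e2, e3] at h1
    · intro b
      by_cases hb : K.map (MulAut.conj (b : G)).toMonoidHom = K
      · left
        intro x
        refine ⟨⟨(b : G) * x * (b : G)⁻¹, ?_⟩, hconj b x⟩
        have := hmem b x x.2
        rwa [hb] at this
      · exact Or.inr (hmov b hb)
  intro a ha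
  have hfix : K.map (MulAut.conj a).toMonoidHom = K := by
    by_contra hne
    have h1 := main hQ α κ hcfg ⟨⟨a, ha⟩, hmov ⟨a, ha⟩ hne⟩
    apply Cfsg.Agent.Lib.Helper31.IsComponent.ne_bot hK
    rw [eq_bot_iff]
    intro x hx
    have h2 : ρ x = ρ 1 := by
      rw [map_one]
      exact h1 ⟨x, hx⟩
    exact hρ h2
  rw [Subgroup.mem_normalizer_iff]
  intro h
  constructor
  · intro hh
    have := hmem a h hh
    rwa [hfix] at this
  · intro hh
    rw [← hfix] at hh
    obtain ⟨k, hk, hkh⟩ := hh
    have : k = h := by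
      have h3 : a * k * a⁻¹ = a * h * a⁻¹ := by simpa [MulAut.conj_apply] using hkh
      exact mul_left_cancel (mul_right_cancel h3)
    rwa [← this]

end Cfsg.Agent.Lib.Helper73.PGVFinal
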